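import Cfsg.Agent.H665.RIM.Defs
import Cfsg.Agent.H487.SchurMult
import Cfsg.Agent.Blocks.CliffordCentral

/-!
# S4816: transport of the rows and groups with trivial multiplier (helper325)

* `NB.congr`, `NBall.congr` : the rows may be proved for any isomorphic group, in any universe;
* `nball_of_mult` : no row is needed if every nontrivial divisor of the order of the multiplier is divisible by `p`;
* `nball_of_one`, `nball_of_self` : the multiplier is trivial or cyclic of order `p`.
-/

set_option autoImplicit false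
set_option linter.unusedSectionVars false

namespace Cfsg.Agent.H325.RIM

open Cfsg Cfsg.Agent.H665.RIM

universe u v w x

variable {p : ℕ}

theorem card_ker_congr {E : Type u} [Group E] {E' : Type v} [Group E'] {S : Type w} [Group S] {T : Type x} [Group T]
    (e : S ≃* T) (f : E' ≃* E) (π : E →* S) {x : E'} :
    x ∈ (e.toMonoidHom.comp (π.comp f.toMonoidHom)).ker ↔ f x ∈ π.ker := by
  rw [MonoidHom.mem_ker, MonoidHom.mem_ker]
  exact map_eq_one_iff _ e.injective

/-- Rows may be proved for an isomorphic group, in any universe. -/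
theorem NB.congr {m : ℕ} {S : Type u} [Group S] {T : Type v} [Group T] (e : S ≃* T) (h : NB.{v} p m T) :
    NB.{u} p m S := by
  intro E _ _ π hπ hc hp hm l hl
  obtain ⟨E', _, _, ⟨f⟩⟩ : ∃ (E' : Type v) (_ : Group E') (_ : Finite E'), Nonempty (E' ≃* E) := by
    have hsm : Small.{v, u} E := Countable.toSmall.{v, u} E
    exact ⟨Shrink.{v, u} E, inferInstance, Finite.of_equiv E (equivShrink.{v, u} E), ⟨Shrink.mulEquiv⟩⟩
  let π' : E' →* T := e.toMonoidHom.comp (π.comp f.toMonoidHom)
  have hk : ∀ {x : E'}, x ∈ π'.ker ↔ f x ∈ π.ker := card_ker_congr e f π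
  let g : π'.ker →* π.ker :=
    { toFun := fun x => ⟨f x, hk.1 x.2⟩
      map_one' := Subtype.ext (map_one f)
      map_mul' := fun x y => Subtype.ext (map_mul f _ _) }
  have hg : Function.Bijective g := by
    constructor
    · intro x y hxy
      exact Subtype.ext (f.injective (congrArg Subtype.val hxy))
    · intro y
      refine ⟨⟨f.symm y, hk.2 ?_⟩, Subtype.ext (f.apply_symm_apply _)⟩
      rw [f.apply_symm_apply]
      exact y.2
  have hc' : π'.ker ≤ Subgroup.center E' := by
    intro x hx
    rw [Subgroup.mem_center_iff]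
    intro y
    apply f.injective
    rw [map_mul, map_mul]
    exact Subgroup.mem_center_iff.1 (hc (hk.1 hx)) (f y)
  have hp' : commutator E' = ⊤ := by
    have h1 : (commutator E').map f.toMonoidHom = commutator E := by
      rw [commutator_def, Subgroup.map_commutator, commutator_def]
      congr 1 <;> exact Subgroup.map_top_of_surjective _ f.surjective
    rw [hp] at h1
    rw [eq_top_iff]
    intro x _
    have h2 : f x ∈ (commutator E').map f.toMonoidHom := by rw [h1]; trivial
    obtain ⟨y, hy, hxy⟩ := h2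
    have : y = x := f.injective hxy
    exact this ▸ hy
  obtain ⟨χ, h1, h2, h3⟩ := h E' π' ((e.surjective.comp hπ).comp f.surjective) hc' hp'
    ((Nat.card_congr (Equiv.ofBijective g hg)).trans hm) (l.comp g) (hl.comp hg.1)
  refine ⟨fun x => χ (f.symm x), Blocks.CliffordCentral.isIrrCharacter_comp h1 f.symm.toMonoidHom f.symm.surjective,
    fun z => ?_, ?_⟩
  · have h4 := h2 ⟨f.symm z, hk.2 (by rw [f.apply_symm_apply]; exact z.2)⟩
    change χ (f.symm z) = χ (f.symm 1) * l z
    rw [map_one, h4]
    congr 2
    change l (g _) = l z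
    congr 1
    exact Subtype.ext (f.apply_symm_apply _)
  · have h4 : charDegree (fun x : E => χ (f.symm x)) = charDegree χ := by
      change ⌊(χ (f.symm 1)).re⌋₊ = ⌊(χ 1).re⌋₊
      rw [map_one]
    rw [h4]
    exact h3

theorem NBall.congr {S : Type u} [Group S] {T : Type v} [Group T] (e : S ≃* T) (h : NBall.{v} p T) :
    NBall.{u} p S :=
  fun m hm hpm => NB.congr e (h m hm hpm)

theorem AbSyl.congr {S : Type u} [Group S] {T : Type v} [Group T] (e : S ≃* T) (h : AbSyl p T) : AbSyl p S := by
  intro P hP a ha b hb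
  have h1 := h (P.map e.toMonoidHom) (hP.map _) (e a) ⟨a, ha, rfl⟩ (e b) ⟨b, hb, rfl⟩
  apply e.injective
  rw [map_mul, map_mul]
  exact h1

/-- The multiplier has no nontrivial quotient of order prime to `p`. -/
theorem nball_of_mult {S : Type u} [Group S] {T : Type v} [Group T] {A : Type w} [CommGroup A]
    (hA : HasSchurMultiplier T A) (e : S ≃* T) (h : ∀ m, 2 ≤ m → m ∣ Nat.card A → p ∣ m) : NBall.{u} p S := by
  intro m hm hpm E _ _ π hπ hc hp hk
  exfalso
  have hk' : (e.toMonoidHom.comp π).ker = π.ker := by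
    ext x
    rw [MonoidHom.mem_ker, MonoidHom.mem_ker, MonoidHom.comp_apply]
    exact map_eq_one_iff _ e.injective
  have hσ : IsStemExtension (e.toMonoidHom.comp π) :=
    ⟨e.surjective.comp hπ, by rw [hk']; exact hc, by rw [hp]; exact le_top⟩
  obtain ⟨f, hf⟩ := H487.HasSchurMultiplier.exists_surj_ker hA hσ
  have h1 := Subgroup.card_dvd_of_surjective f hf
  rw [hk', hk] at h1
  exact hpm (h m hm h1)

theorem nball_of_cyclic {S : Type u} [Group S] {T : Type v} [Group T] {n : ℕ} (hA : HasCyclicSchurMultiplier T n)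
    (e : Nonempty (S ≃* T)) (h : ∀ m, 2 ≤ m → m ∣ n → p ∣ m) : NBall.{u} p S := by
  obtain ⟨e⟩ := e
  refine nball_of_mult hA e ?_
  rwa [Nat.card_congr (Multiplicative.toAdd (α := ZMod n)), Nat.card_zmod]

/-- Trivial multiplier. -/
theorem nball_of_one {S : Type u} [Group S] {T : Type v} [Group T] (hA : HasCyclicSchurMultiplier T 1)
    (e : Nonempty (S ≃* T)) : NBall.{u} p S :=
  nball_of_cyclic hA e fun m hm hd => by
    have := Nat.dvd_one.1 hd
    omega

/-- The multiplier is cyclic of order `1` or `p`. -/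
theorem nball_of_dvd {S : Type u} [Group S] {T : Type v} [Group T] {n : ℕ} (hp : p.Prime)
    (hA : HasCyclicSchurMultiplier T n) (e : Nonempty (S ≃* T)) (h : n ∣ p) : NBall.{u} p S :=
  nball_of_cyclic hA e fun m hm hd => by
    rcases (Nat.dvd_prime hp).1 (hd.trans h) with h1 | h1
    · omega
    · rw [h1]

end Cfsg.Agent.H325.RIM
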