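import Cfsg.Agent.H325.RIM.Base

/-!
# S4816: transport of the module side of the rows (helper325)

`EK.congr`, `Kill.congr` : the rows may be proved for any isomorphic group, in any universe.
-/

set_option autoImplicit false
set_option linter.unusedSectionVars false

namespace Cfsg.Agent.H325.RIM

open Cfsg Cfsg.Agent.H665.RIM Cfsg.Agent.H229.RIM
open scoped commutatorElement

universe u v w x

variable {p : ℕ}

theorem commutator_eq_top_congr {H : Type u} [Group H] {H' : Type v} [Group H'] (f : H' ≃* H)
    (h : commutator H = ⊤) : commutator H' = ⊤ := by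
  have h1 : (commutator H').map f.toMonoidHom = commutator H := by
    rw [commutator_def, Subgroup.map_commutator, commutator_def]
    congr 1 <;> exact Subgroup.map_top_of_surjective _ f.surjective
  rw [h] at h1
  rw [eq_top_iff]
  intro x _
  have h2 : f x ∈ (commutator H').map f.toMonoidHom := by rw [h1]; trivial
  obtain ⟨y, hy, hxy⟩ := h2
  have : y = x := f.injective hxy
  exact this ▸ hy

/-- the restriction of an isomorphism to the preimage of a subgroup -/
def comapEquiv {H : Type u} [Group H] {H' : Type v} [Group H'] (f : H' ≃* H) (N : Subgroup H) :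
    ↥(N.comap f.toMonoidHom) ≃* N where
  toFun x := ⟨f x, x.2⟩
  invFun y := ⟨f.symm y, by
    change f (f.symm y) ∈ N
    rw [f.apply_symm_apply]
    exact y.2⟩
  left_inv x := Subtype.ext (f.symm_apply_apply _)
  right_inv y := Subtype.ext (f.apply_symm_apply _)
  map_mul' x y := Subtype.ext (map_mul f _ _)

section stab

variable {H : Type u} {V : Type w} {H' : Type v} {V' : Type x} [Group H] [Finite H] [AddCommGroup V] [Finite V]
  [DistribMulAction H V] [Group H'] [Finite H'] [AddCommGroup V'] [Finite V'] [DistribMulAction H' V']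

theorem stab_eq (f : H' ≃* H) (g : V' ≃+ V) (hs : ∀ (h : H') (v : V'), g (h • v) = f h • g v) (v : V') :
    MulAction.stabilizer H' v = (MulAction.stabilizer H (g v)).comap f.toMonoidHom := by
  ext x
  rw [Subgroup.mem_comap, MulAction.mem_stabilizer_iff, MulAction.mem_stabilizer_iff]
  change x • v = v ↔ f x • g v = g v
  rw [← hs]
  exact g.injective.eq_iff.symm

theorem CoreP.congr (f : H' ≃* H) (g : V' ≃+ V) (hs : ∀ (h : H') (v : V'), g (h • v) = f h • g v)
    {K N : Subgroup H} {φ : N →* ℂˣ} (hC : CoreP (V := V) p K N φ) :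
    CoreP (V := V') p (K.comap f.toMonoidHom) (N.comap f.toMonoidHom)
      (φ.comp (comapEquiv f N).toMonoidHom) := by
  have hK := hC.nK
  have hq : ∃ e : H' ⧸ K.comap f.toMonoidHom ≃* H ⧸ K, True := by
    refine ⟨QuotientGroup.congr _ _ f ?_, trivial⟩
    exact Subgroup.map_comap_eq_self_of_surjective f.surjective K
  obtain ⟨e, -⟩ := hq
  have hcK : Nat.card ↥(K.comap f.toMonoidHom) = Nat.card K := Nat.card_congr (comapEquiv f K).toEquiv
  refine
    { odd := hC.odd
      perf := commutator_eq_top_congr f hC.perf
      nK := inferInstance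
      Kt := fun h => hC.Kt ?_
      maxK := fun M hM hMt => ?_
      simp := ?_
      na := fun h => hC.na ?_
      pK := by rw [hcK]; exact hC.pK
      pS := by rw [Nat.card_congr e.toEquiv]; exact hC.pS
      ab := fun P a ha b hb => ?_
      cen := fun x hx => ?_
      NK := Subgroup.comap_mono hC.NK
      Nne := fun h => hC.Nne ?_
      inj := hC.inj.comp (comapEquiv f N).injective
      exp := fun v => g.injective (by rw [map_nsmul, map_zero]; exact hC.exp _)
      nt := ?_
      ker := fun h => ?_
      irr := fun W hW => ?_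
      P1 := fun v => ?_
      P2 := fun v χ hχ hl => ?_ }
  · rw [eq_top_iff]
    intro y _
    have h1 : f.symm y ∈ K.comap f.toMonoidHom := by rw [h]; trivial
    have h2 : f (f.symm y) ∈ K := h1
    rwa [f.apply_symm_apply] at h2
  · have h1 : (M.map f.toMonoidHom) ≤ K := by
      refine hC.maxK _ (hM.map _ f.surjective) fun h => hMt ?_
      rw [eq_top_iff]
      intro y _
      have h2 : f y ∈ M.map f.toMonoidHom := by rw [h]; trivial
      obtain ⟨z, hz, hzy⟩ := h2
      have : z = y := f.injective hzy
      exact this ▸ hz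
    intro y hy
    exact h1 ⟨y, hy, rfl⟩
  · have := hC.simp
    have : Nontrivial (H' ⧸ K.comap f.toMonoidHom) := e.toEquiv.nontrivial
    exact IsSimpleGroup.isSimpleGroup_of_surjective e.symm.toMonoidHom e.symm.surjective
  · refine ⟨⟨fun a b => e.symm.injective ?_⟩⟩
    rw [map_mul, map_mul]
    exact h.is_comm.comm _ _
  · have : (P : Subgroup H').map f.toMonoidHom = (P.comapOfInjective f.symm.toMonoidHom f.symm.injective (by
        intro x _
        exact ⟨f x, f.symm_apply_apply x⟩) : Subgroup H) := by
      ext y
      constructor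
      · rintro ⟨x, hx, rfl⟩
        change f.symm (f x) ∈ (P : Subgroup H')
        rw [f.symm_apply_apply]
        exact hx
      · intro hy
        exact ⟨f.symm y, hy, f.apply_symm_apply y⟩
    have h1 := hC.ab (P.comapOfInjective f.symm.toMonoidHom f.symm.injective (by
        intro x _
        exact ⟨f x, f.symm_apply_apply x⟩)) (f a) (by
          change f a ∈ (P.comapOfInjective f.symm.toMonoidHom f.symm.injective _ : Subgroup H)
          rw [← this]
          exact ⟨a, ha, rfl⟩) (f b) (by
          change f b ∈ (P.comapOfInjective f.symm.toMonoidHom f.symm.injective _ : Subgroup H)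
          rw [← this]
          exact ⟨b, hb, rfl⟩)
    apply f.injective
    rw [map_mul, map_mul]
    exact h1
  · rw [Subgroup.mem_center_iff]
    intro y
    apply f.injective
    rw [map_mul, map_mul]
    exact Subgroup.mem_center_iff.1 (hC.cen hx) (f y)
  · rw [eq_bot_iff]
    intro y hy
    have h1 : f.symm y ∈ N.comap f.toMonoidHom := by
      change f (f.symm y) ∈ N
      rwa [f.apply_symm_apply]
    rw [h, Subgroup.mem_bot] at h1
    rw [Subgroup.mem_bot]
    have h2 := congrArg f h1
    rwa [f.apply_symm_apply, map_one] at h2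
  · have := hC.nt
    exact g.toEquiv.nontrivial
  · rw [Subgroup.mem_comap]
    refine Iff.trans ?_ (hC.ker (f h))
    constructor
    · intro h1 v
      have h2 := h1 (g.symm v)
      have h3 := congrArg g h2
      rwa [hs, g.apply_symm_apply] at h3
    · intro h1 v
      apply g.injective
      rw [hs]
      exact h1 _
  · have h1 := hC.irr (W.map g.toAddMonoidHom) (by
      rintro h _ ⟨w, hw, rfl⟩
      refine ⟨f.symm h • w, hW _ w hw, ?_⟩
      change g (f.symm h • w) = h • g w
      rw [hs, f.apply_symm_apply])
    rcases h1 with h1 | h1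
    · left
      rw [eq_bot_iff]
      intro w hw
      have h2 : g w ∈ W.map g.toAddMonoidHom := ⟨w, hw, rfl⟩
      rw [h1, AddSubgroup.mem_bot] at h2
      rw [AddSubgroup.mem_bot]
      exact g.injective (h2.trans (map_zero g).symm)
    · right
      rw [eq_top_iff]
      intro w _
      have h2 : g w ∈ W.map g.toAddMonoidHom := by rw [h1]; trivial
      obtain ⟨w', hw', hww⟩ := h2
      have : w' = w := g.injective hww
      exact this ▸ hw'
  · rw [stab_eq f g hs v, Subgroup.index_comap_of_surjective _ f.surjective]
    exact hC.P1 (g v)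
  · let ε : ↥(MulAction.stabilizer H' v) ≃* ↥(MulAction.stabilizer H (g v)) :=
      (MulEquiv.subgroupCongr (stab_eq f g hs v)).trans (comapEquiv f (MulAction.stabilizer H (g v)))
    have hε : ∀ x, ((ε x : ↥(MulAction.stabilizer H (g v))) : H) = f x := fun x => rfl
    have h1 := hC.P2 (g v) (fun x => χ (ε.symm x))
      (Blocks.CliffordCentral.isIrrCharacter_comp hχ ε.symm.toMonoidHom ε.symm.surjective) (by
        intro n hn hn'
        have hn1 : f.symm n ∈ N.comap f.toMonoidHom := by
          change f (f.symm n) ∈ N
          rwa [f.apply_symm_apply]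
        have hn2 : f.symm n ∈ MulAction.stabilizer H' v := by
          rw [stab_eq f g hs v]
          change f (f.symm n) ∈ MulAction.stabilizer H (g v)
          rwa [f.apply_symm_apply]
        have h2 := hl (f.symm n) hn1 hn2
        have h3 : ε.symm ⟨n, hn'⟩ = ⟨f.symm n, hn2⟩ := by
          rw [MulEquiv.symm_apply_eq]
          apply Subtype.ext
          rw [hε]
          exact (f.apply_symm_apply n).symm
        change χ (ε.symm ⟨n, hn'⟩) = χ (ε.symm 1) * φ ⟨n, hn⟩
        have h5 : comapEquiv f N ⟨f.symm n, hn1⟩ = ⟨n, hn⟩ := Subtype.ext (f.apply_symm_apply n)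
        rw [h3, map_one, h2]
        change χ 1 * ((φ (comapEquiv f N ⟨f.symm n, hn1⟩) : ℂˣ) : ℂ) = _
        rw [h5])
    have h4 : charDegree (fun x : ↥(MulAction.stabilizer H (g v)) => χ (ε.symm x)) = charDegree χ := by
      change ⌊(χ (ε.symm 1)).re⌋₊ = ⌊(χ 1).re⌋₊
      rw [map_one]
    rwa [h4] at h1

end stab

theorem exists_copy {H : Type u} {V : Type u} [Group H] [Finite H] [AddCommGroup V] [Finite V]
    [DistribMulAction H V] : ∃ (H' V' : Type v) (_ : Group H') (_ : Finite H') (_ : AddCommGroup V')
      (_ : Finite V') (_ : DistribMulAction H' V') (f : H' ≃* H) (g : V' ≃+ V),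
      ∀ (h : H') (v : V'), g (h • v) = f h • g v := by
  have s1 : Small.{v, u} H := Countable.toSmall.{v, u} H
  have s2 : Small.{v, u} V := Countable.toSmall.{v, u} V
  let f : Shrink.{v, u} H ≃* H := Shrink.mulEquiv
  let g : Shrink.{v, u} V ≃+ V := Shrink.addEquiv
  let A : DistribMulAction (Shrink.{v, u} H) (Shrink.{v, u} V) :=
    { smul := fun h v => g.symm (f h • g v)
      one_smul := fun v => by
        change g.symm (f 1 • g v) = v
        rw [map_one, one_smul, g.symm_apply_apply]
      mul_smul := fun a b v => by
        change g.symm (f (a * b) • g v) = g.symm (f a • g (g.symm (f b • g v)))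
        rw [map_mul, mul_smul, g.apply_symm_apply]
      smul_zero := fun a => by
        change g.symm (f a • g 0) = 0
        rw [map_zero, smul_zero, map_zero]
      smul_add := fun a v w => by
        change g.symm (f a • g (v + w)) = g.symm (f a • g v) + g.symm (f a • g w)
        rw [map_add, smul_add, map_add] }
  exact ⟨Shrink.{v, u} H, Shrink.{v, u} V, inferInstance, Finite.of_equiv H (equivShrink.{v, u} H),
    inferInstance, Finite.of_equiv V (equivShrink.{v, u} V), A, f, g, fun h v => g.apply_symm_apply _⟩

/-- Rows on the module side may be proved for an isomorphic group, in any universe. -/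
theorem EK.congr {S : Type u} [Group S] {T : Type v} [Group T] (e : S ≃* T) (h : EK.{v} p T) : EK.{u} p S := by
  intro H V _ _ _ _ _ K N φ π hC hπ hK hN
  obtain ⟨H', V', _, _, _, _, _, f, g, hs⟩ := exists_copy.{u, v} (H := H) (V := V)
  have hC' := CoreP.congr f g hs hC
  refine h H' V' _ _ _ (e.toMonoidHom.comp (π.comp f.toMonoidHom)) hC'
    ((e.surjective.comp hπ).comp f.surjective) ?_ ?_
  · ext x
    rw [card_ker_congr e f π, hK]
    rfl
  · intro k hk x
    change f ⁅k, x⁆ ∈ N
    rw [map_commutatorElement]
    exact hN _ hk _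

theorem Kill.congr {S : Type u} [Group S] {T : Type v} [Group T] (e : S ≃* T) (h : Kill.{v} p T) : Kill.{u} p S :=
  h.imp (NBall.congr e) (EK.congr e)

end Cfsg.Agent.H325.RIM
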