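import Cfsg.Agent.H325.RIM.Base
import Cfsg.Agent.H436.Names
import Cfsg.Agent.OrdDiv.Table
import Cfsg.Agent.H545.LT.RowPSLTwo

/-!
# S4816: the survivors, and the list of the rows (helper325)

* `SurvN p g`, `Surv p S` : the pairs (prime, simple group) for which the character side alone is not claimed
  (all have abelian Sylow `p`-subgroups: `absyl_of_surv`);
* `NBRow p g`, `KillRow p g` : the row of the group with name `g` at `p` (character side; character or module side);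
* `RowsNB`, `RowsKill` : the rows needed.
-/

set_option autoImplicit false
set_option linter.unusedSectionVars false

namespace Cfsg.Agent.H325.RIM

open Cfsg Cfsg.Agent.H665.RIM Cfsg.Agent.OrdDiv Cfsg.Agent.H436

universe u v

theorem real_congr {g : Grp} {X : Type u} {Y : Type v} [Group X] [Group Y] (h : Real g X) (e : Y ≃* X) :
    Real g Y := by
  cases g <;>
    first
    | exact ⟨e.trans h.some⟩
    | (obtain ⟨F, i1, i2, h1, h2⟩ := h; exact ⟨F, i1, i2, h1, ⟨e.trans h2.some⟩⟩)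
    | (obtain ⟨F, i1, i2, w, h1, h2, h3⟩ := h; exact ⟨F, i1, i2, w, h1, h2, ⟨e.trans h3.some⟩⟩)
    | (obtain ⟨F, i1, i2, a, c, h1, h2, h3⟩ := h; exact ⟨F, i1, i2, a, c, h1, h2, ⟨e.trans h3.some⟩⟩)
    | (obtain ⟨F, i1, i2, k, h1, h2, h3, h4⟩ := h; exact ⟨F, i1, i2, k, h1, h2, h3, ⟨e.trans h4.some⟩⟩)

theorem named_congr {g : Grp} {X : Type u} {Y : Type v} [Group X] [Group Y] (h : IsNamed g X) (e : Y ≃* X) :
    IsNamed g Y :=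
  ⟨real_congr h.real e, h.cond, by rw [Nat.card_congr e.toEquiv]; exact h.eq,
    by rw [Nat.card_congr e.toEquiv]; exact h.ord⟩

/-- The survivors, by name: the character side is not claimed. -/
def SurvN (p : ℕ) : Grp → Prop
  | .alt n => (n = 6 ∧ p = 5) ∨ (n = 7 ∧ (p = 5 ∨ p = 7)) ∨ (n = 8 ∧ p = 5)
  | .psl n q => (n = 2 ∧ p ∣ q) ∨ (n = 3 ∧ q = 4 ∧ (p = 3 ∨ p = 5 ∨ p = 7))
  | .psu n q => (n = 4 ∧ q = 3 ∧ (p = 5 ∨ p = 7)) ∨ (n = 6 ∧ q = 2 ∧ (p = 5 ∨ p = 7 ∨ p = 11))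
  | .psp m q => m = 3 ∧ q = 2 ∧ (p = 5 ∨ p = 7)
  | .oodd m q => m = 3 ∧ q = 3 ∧ (p = 5 ∨ p = 7 ∨ p = 13)
  | .oplus m q => m = 4 ∧ q = 2 ∧ (p = 5 ∨ p = 7)
  | .ominus m q => m = 4 ∧ q = 3 ∧ p = 13
  | .g2 q => (q = 3 ∧ (p = 7 ∨ p = 13)) ∨ (q = 4 ∧ (p = 5 ∨ p = 7 ∨ p = 13))
  | .f4 q => q = 2 ∧ (p = 5 ∨ p = 7 ∨ p = 13 ∨ p = 17)
  | .te6 q => q = 2 ∧ (p = 5 ∨ p = 7 ∨ p = 11 ∨ p = 13 ∨ p = 17 ∨ p = 19)
  | .sz q => q = 8 ∧ (p = 5 ∨ p = 7 ∨ p = 13)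
  | .m12 => p = 5 ∨ p = 11
  | .m22 => p = 3 ∨ p = 5 ∨ p = 7 ∨ p = 11
  | .j2 => p = 5 ∨ p = 7
  | .j3 => p = 5 ∨ p = 17 ∨ p = 19
  | .hs => p = 3 ∨ p = 7 ∨ p = 11
  | .mcl => p = 7 ∨ p = 11
  | .suz => p = 5 ∨ p = 7 ∨ p = 11 ∨ p = 13
  | .ru => p = 7 ∨ p = 13 ∨ p = 29
  | .on => p = 5 ∨ p = 11 ∨ p = 19 ∨ p = 31
  | .co1 => p = 7 ∨ p = 11 ∨ p = 13 ∨ p = 23
  | .fi22 => p = 5 ∨ p = 7 ∨ p = 11 ∨ p = 13
  | .fi24 => p = 5 ∨ p = 11 ∨ p = 13 ∨ p = 17 ∨ p = 23 ∨ p = 29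
  | .b => p = 7 ∨ p = 11 ∨ p = 13 ∨ p = 17 ∨ p = 19 ∨ p = 23 ∨ p = 31 ∨ p = 47
  | _ => False

/-- The survivors. -/
def Surv (p : ℕ) (S : Type u) [Group S] : Prop := ∃ g : Grp, IsNamed g S ∧ SurvN p g

/-- The row (character side) of the group with name `g` at the prime `p`. -/
def NBRow (p : ℕ) (g : Grp) : Prop :=
  ∀ (S : Type) [Group S] [Finite S], IsNamed g S → p ∣ Nat.card S → NBall.{0} p S

/-- The row (character or module side) of the group with name `g` at the prime `p`. -/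
def KillRow (p : ℕ) (g : Grp) : Prop :=
  ∀ (S : Type u) [Group S] [Finite S], IsNamed g S → Kill.{u} p S

/-- The rows on the character side. -/
structure RowsNB : Prop where
  /-- cross characteristic (nb_psl, helper886) -/
  psl : ∀ p n q : ℕ, p.Prime → p ≠ 2 → ¬ p ∣ q →
    (n, q) ∉ ({(2, 4), (2, 9), (3, 2), (3, 4), (4, 2)} : Set (ℕ × ℕ)) → NBRow p (.psl n q)
  /-- nb_psu, helper929 (with helper497 for `n = 3`) -/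
  psu : ∀ p n q : ℕ, p.Prime → p ≠ 2 → ¬ p ∣ q → (n, q) ∉ ({(4, 2), (4, 3), (6, 2)} : Set (ℕ × ℕ)) →
    NBRow p (.psu n q)
  /-- helper365 -/
  psp : ∀ p m q : ℕ, p.Prime → p ≠ 2 → ¬ p ∣ q → Odd q → NBRow p (.psp m q)
  /-- helper292 -/
  oodd : ∀ p m q : ℕ, p.Prime → p ≠ 2 → ¬ p ∣ q → ¬ (m = 3 ∧ q = 3) → NBRow p (.oodd m q)
  /-- helper310 -/
  oplus : ∀ p m q : ℕ, p.Prime → p ≠ 2 → ¬ p ∣ q → Odd q → NBRow p (.oplus m q)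
  /-- helper993 -/
  ominus : ∀ p m q : ℕ, p.Prime → p ≠ 2 → ¬ p ∣ q → Odd q → ¬ (m = 4 ∧ q = 3 ∧ p = 13) → NBRow p (.ominus m q)
  /-- helper239 -/
  e6 : ∀ p q : ℕ, p.Prime → p ≠ 2 → p ≠ 3 → ¬ p ∣ q → 3 ∣ q - 1 → NBRow p (.e6 q)
  /-- helper542 -/
  e7 : ∀ p q : ℕ, p.Prime → p ≠ 2 → ¬ p ∣ q → Odd q → NBRow p (.e7 q)
  /-- helper726 -/
  te6 : ∀ p q : ℕ, p.Prime → p ≠ 2 → p ≠ 3 → ¬ p ∣ q → 3 ∣ q + 1 → q ≠ 2 → NBRow p (.te6 q)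
  /-- own characteristic (helper963) -/
  own_psl : ∀ p n q : ℕ, p.Prime → p ≠ 2 → p ∣ q → 3 ≤ n → NBRow p (.psl n q)
  own_psp : ∀ p m q : ℕ, p.Prime → p ≠ 2 → p ∣ q → NBRow p (.psp m q)
  own_psu : ∀ p n q : ℕ, p.Prime → p ≠ 2 → p ∣ q → NBRow p (.psu n q)
  own_oodd : ∀ p m q : ℕ, p.Prime → p ≠ 2 → p ∣ q → NBRow p (.oodd m q)
  own_oplus : ∀ p m q : ℕ, p.Prime → p ≠ 2 → p ∣ q → NBRow p (.oplus m q)
  own_ominus : ∀ p m q : ℕ, p.Prime → p ≠ 2 → p ∣ q → NBRow p (.ominus m q)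
  own_e6 : ∀ p q : ℕ, p.Prime → p ≠ 2 → p ∣ q → 3 ∣ q - 1 → NBRow p (.e6 q)
  own_e7 : ∀ p q : ℕ, p.Prime → p ≠ 2 → p ∣ q → NBRow p (.e7 q)
  own_te6 : ∀ p q : ℕ, p.Prime → p ≠ 2 → p ∣ q → 3 ∣ q + 1 → NBRow p (.te6 q)
  /-- alternating groups: helper698 (`8 ≤ n`; `n = 8`, `p = 3, 7` may come from helper25), helper25 (`n = 7`) -/
  alt : ∀ p n : ℕ, p.Prime → p ≠ 2 → 8 ≤ n → ¬ (n = 8 ∧ p = 5) → NBRow p (.alt n)
  alt7 : NBRow 3 (.alt 7)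
  /-- helper74 -/
  sp62 : NBRow 3 (.psp 3 2)
  /-- helper277 -/
  g24 : NBRow 3 (.g2 4)
  /-- helper949 -/
  o8p : NBRow 3 (.oplus 4 2)
  /-- helper344 -/
  u62 : NBRow 3 (.psu 6 2)
  /-- helper943 -/
  f42 : NBRow 3 (.f4 2)
  /-- helper190 -/
  te62 : NBRow 3 (.te6 2)
  /-- helper243 -/
  m12 : NBRow 3 .m12
  /-- helper300 -/
  j2 : NBRow 3 .j2
  /-- helper257 -/
  hs : NBRow 5 .hs
  /-- helper344 -/
  mcl : NBRow 5 .mcl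
  /-- helper759 -/
  suz : NBRow 3 .suz
  /-- helper300 -/
  ru3 : NBRow 3 .ru
  ru5 : NBRow 5 .ru
  /-- helper174 -/
  on : NBRow 7 .on
  /-- helper764 -/
  co1_3 : NBRow 3 .co1
  co1_5 : NBRow 5 .co1
  /-- helper878 -/
  fi22 : NBRow 3 .fi22
  /-- helper838 -/
  fi24 : NBRow 7 .fi24
  b3 : NBRow 3 .b
  b5 : NBRow 5 .b

/-- The rows on the character or module side. -/
structure RowsKill : Prop where
  /-- `PSL_2(q)` in its own characteristic -/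
  psl2 : ∀ p q : ℕ, p.Prime → p ≠ 2 → p ∣ q → KillRow.{u} p (.psl 2 q)
  a6 : KillRow.{u} 5 (.alt 6)
  a7_5 : KillRow.{u} 5 (.alt 7)
  a7_7 : KillRow.{u} 7 (.alt 7)
  a8 : KillRow.{u} 5 (.alt 8)
  l34 : ∀ p : ℕ, p = 3 ∨ p = 5 ∨ p = 7 → KillRow.{u} p (.psl 3 4)
  u43 : ∀ p : ℕ, p = 5 ∨ p = 7 → KillRow.{u} p (.psu 4 3)
  u62 : ∀ p : ℕ, p = 5 ∨ p = 7 ∨ p = 11 → KillRow.{u} p (.psu 6 2)
  sp62 : ∀ p : ℕ, p = 5 ∨ p = 7 → KillRow.{u} p (.psp 3 2)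
  o73 : ∀ p : ℕ, p = 5 ∨ p = 7 ∨ p = 13 → KillRow.{u} p (.oodd 3 3)
  o8p : ∀ p : ℕ, p = 5 ∨ p = 7 → KillRow.{u} p (.oplus 4 2)
  /-- helper46 -/
  om43 : KillRow.{u} 13 (.ominus 4 3)
  g23 : ∀ p : ℕ, p = 7 ∨ p = 13 → KillRow.{u} p (.g2 3)
  g24 : ∀ p : ℕ, p = 5 ∨ p = 7 ∨ p = 13 → KillRow.{u} p (.g2 4)
  f42 : ∀ p : ℕ, p = 5 ∨ p = 7 ∨ p = 13 ∨ p = 17 → KillRow.{u} p (.f4 2)
  te62 : ∀ p : ℕ, p = 5 ∨ p = 7 ∨ p = 11 ∨ p = 13 ∨ p = 17 ∨ p = 19 → KillRow.{u} p (.te6 2)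
  sz8 : ∀ p : ℕ, p = 5 ∨ p = 7 ∨ p = 13 → KillRow.{u} p (.sz 8)
  m12 : ∀ p : ℕ, p = 5 ∨ p = 11 → KillRow.{u} p .m12
  m22 : ∀ p : ℕ, p = 3 ∨ p = 5 ∨ p = 7 ∨ p = 11 → KillRow.{u} p .m22
  j2 : ∀ p : ℕ, p = 5 ∨ p = 7 → KillRow.{u} p .j2
  j3 : ∀ p : ℕ, p = 5 ∨ p = 17 ∨ p = 19 → KillRow.{u} p .j3
  hs : ∀ p : ℕ, p = 3 ∨ p = 7 ∨ p = 11 → KillRow.{u} p .hs
  mcl : ∀ p : ℕ, p = 7 ∨ p = 11 → KillRow.{u} p .mcl
  suz : ∀ p : ℕ, p = 5 ∨ p = 7 ∨ p = 11 ∨ p = 13 → KillRow.{u} p .suz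
  ru : ∀ p : ℕ, p = 7 ∨ p = 13 ∨ p = 29 → KillRow.{u} p .ru
  on : ∀ p : ℕ, p = 5 ∨ p = 11 ∨ p = 19 ∨ p = 31 → KillRow.{u} p .on
  co1 : ∀ p : ℕ, p = 7 ∨ p = 11 ∨ p = 13 ∨ p = 23 → KillRow.{u} p .co1
  fi22 : ∀ p : ℕ, p = 5 ∨ p = 7 ∨ p = 11 ∨ p = 13 → KillRow.{u} p .fi22
  fi24 : ∀ p : ℕ, p = 5 ∨ p = 11 ∨ p = 13 ∨ p = 17 ∨ p = 23 ∨ p = 29 → KillRow.{u} p .fi24
  b : ∀ p : ℕ, p = 7 ∨ p = 11 ∨ p = 13 ∨ p = 17 ∨ p = 19 ∨ p = 23 ∨ p = 31 ∨ p = 47 → KillRow.{u} p .b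

/-- The module side of the survivors. -/
theorem kill_of_surv (R : RowsKill.{u}) {p : ℕ} (hp : p.Prime) (h2 : p ≠ 2) {S : Type u} [Group S] [Finite S]
    (h : Surv p S) : Kill.{u} p S := by
  obtain ⟨g, hg, hs⟩ := h
  cases g with
  | alt n =>
    rcases hs with ⟨rfl, rfl⟩ | ⟨rfl, rfl | rfl⟩ | ⟨rfl, rfl⟩
    · exact R.a6 S hg
    · exact R.a7_5 S hg
    · exact R.a7_7 S hg
    · exact R.a8 S hg
  | psl n q =>
    rcases hs with ⟨rfl, h⟩ | ⟨rfl, rfl, h⟩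
    · exact R.psl2 p q hp h2 h S hg
    · exact R.l34 p h S hg
  | psu n q =>
    rcases hs with ⟨rfl, rfl, h⟩ | ⟨rfl, rfl, h⟩
    · exact R.u43 p h S hg
    · exact R.u62 p h S hg
  | psp m q =>
    obtain ⟨rfl, rfl, h⟩ := hs
    exact R.sp62 p h S hg
  | oodd m q =>
    obtain ⟨rfl, rfl, h⟩ := hs
    exact R.o73 p h S hg
  | oplus m q =>
    obtain ⟨rfl, rfl, h⟩ := hs
    exact R.o8p p h S hg
  | ominus m q =>
    obtain ⟨rfl, rfl, rfl⟩ := hs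
    exact R.om43 S hg
  | g2 q =>
    rcases hs with ⟨rfl, h⟩ | ⟨rfl, h⟩
    · exact R.g23 p h S hg
    · exact R.g24 p h S hg
  | f4 q =>
    obtain ⟨rfl, h⟩ := hs
    exact R.f42 p h S hg
  | te6 q =>
    obtain ⟨rfl, h⟩ := hs
    exact R.te62 p h S hg
  | sz q =>
    obtain ⟨rfl, h⟩ := hs
    exact R.sz8 p h S hg
  | m12 => exact R.m12 p hs S hg
  | m22 => exact R.m22 p hs S hg
  | j2 => exact R.j2 p hs S hg
  | j3 => exact R.j3 p hs S hg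
  | hs => exact R.hs p hs S hg
  | mcl => exact R.mcl p hs S hg
  | suz => exact R.suz p hs S hg
  | ru => exact R.ru p hs S hg
  | on => exact R.on p hs S hg
  | co1 => exact R.co1 p hs S hg
  | fi22 => exact R.fi22 p hs S hg
  | fi24 => exact R.fi24 p hs S hg
  | b => exact R.b p hs S hg
  | _ => exact hs.elim

/-! ### the Sylow subgroups of the survivors are abelian -/

theorem absyl_of_not_dvd {p : ℕ} (hp : p.Prime) {S : Type u} [Group S] [Finite S] (h : ¬ p ^ 3 ∣ Nat.card S) :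
    AbSyl p S := by
  have : Fact p.Prime := ⟨hp⟩
  intro P hP a ha b hb
  obtain ⟨n, hn⟩ := IsPGroup.iff_card.1 hP
  have h1 : p ^ n ∣ Nat.card S := hn ▸ Subgroup.card_subgroup_dvd_card P
  have h2 : n ≤ 2 := by
    by_contra hc
    exact h ((pow_dvd_pow p (by omega)).trans h1)
  have key : ∀ x y : P, x * y = y * x := by
    interval_cases n
    · have : Subsingleton P := (Nat.card_eq_one_iff_unique.1 (by simpa using hn)).1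
      exact fun x y => Subsingleton.elim _ _
    · have : IsCyclic P := isCyclic_of_prime_card (p := p) (by simpa using hn)
      exact fun x y => (IsCyclic.isMulCommutative (α := P)).is_comm.comm x y
    · have h3 := IsPGroup.isMulCommutative_of_card_eq_prime_sq (p := p) hn
      exact fun x y => h3.is_comm.comm x y
  exact congrArg Subtype.val (key ⟨a, ha⟩ ⟨b, hb⟩)

end Cfsg.Agent.H325.RIM
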